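import Mathlib

set_option autoImplicit false

/-!
The Singer group of multiplications by non-zero elements of a finite field `K` inside `GL_F(K)`,
and its normaliser.
-/

namespace Cfsg.Agent.Lib.Singer.Norm

variable {F K : Type*} [Field F] [Field K] [Algebra F K]

/-- Left multiplication as an algebra map. -/
noncomputable abbrev L : K →ₐ[F] Module.End F K := Algebra.lmul F K

/-- The Singer group. -/
noncomputable abbrev singer (F K : Type*) [Field F] [Field K] [Algebra F K] :
    Subgroup (Module.End F K)ˣ :=
  (Units.map ((Algebra.lmul F K : K →ₐ[F] Module.End F K) : K →* Module.End F K)).range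

lemma L_apply (a b : K) : (L (F := F) a) b = a * b := rfl

lemma mem_singer_iff (h : (Module.End F K)ˣ) :
    h ∈ singer F K ↔ ∃ u : Kˣ, (h : Module.End F K) = L (F := F) (u : K) := by
  constructor
  · rintro ⟨u, rfl⟩
    exact ⟨u, rfl⟩
  · rintro ⟨u, hu⟩
    exact ⟨u, Units.ext hu.symm⟩

lemma mul_apply_units (g h : Module.End F K) (x : K) : (g * h) x = g (h x) := rfl

lemma inv_apply_apply (g : (Module.End F K)ˣ) (x : K) :
    ((g⁻¹ : (Module.End F K)ˣ) : Module.End F K) ((g : Module.End F K) x) = x := by
  have h : (((g⁻¹ : (Module.End F K)ˣ) : Module.End F K) * (g : Module.End F K)) x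
      = (1 : Module.End F K) x := by rw [g.inv_mul]
  exact h

lemma apply_inv_apply (g : (Module.End F K)ˣ) (x : K) :
    (g : Module.End F K) (((g⁻¹ : (Module.End F K)ˣ) : Module.End F K) x) = x := by
  have h : ((g : Module.End F K) * ((g⁻¹ : (Module.End F K)ˣ) : Module.End F K)) x
      = (1 : Module.End F K) x := by rw [g.mul_inv]
  exact h

/-- The would-be field automorphism attached to `g`. -/
noncomputable def alpha (g : (Module.End F K)ˣ) (a : K) : K :=
  (g : Module.End F K) (a * ((g⁻¹ : (Module.End F K)ˣ) : Module.End F K) 1)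

lemma alpha_one (g : (Module.End F K)ˣ) : alpha g (1 : K) = 1 := by
  simp only [alpha, one_mul]
  exact apply_inv_apply g 1

/-- Conjugation of a multiplication by an element of the normaliser. -/
lemma conj_L_of_mem_normalizer {g : (Module.End F K)ˣ}
    (hg : g ∈ Subgroup.normalizer ((singer F K : Subgroup (Module.End F K)ˣ) : Set (Module.End F K)ˣ))
    (a : K) :
    (g : Module.End F K) * L (F := F) a * ((g⁻¹ : (Module.End F K)ˣ) : Module.End F K)
      = L (F := F) (alpha g a) := by
  by_cases ha : a = 0
  · subst ha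
    simp only [alpha, zero_mul, map_zero, mul_zero, zero_mul]
  let h : (Module.End F K)ˣ := Units.map
    ((Algebra.lmul F K : K →ₐ[F] Module.End F K) : K →* Module.End F K) (Units.mk0 a ha)
  have hh : h ∈ singer F K := ⟨_, rfl⟩
  have h2 := (Subgroup.mem_normalizer_iff.mp hg h).mp hh
  obtain ⟨u, hu⟩ := (mem_singer_iff _).mp h2
  have h3 : (g : Module.End F K) * L (F := F) a * ((g⁻¹ : (Module.End F K)ˣ) : Module.End F K)
      = L (F := F) (u : K) := by
    rw [← hu]; rfl
  rw [h3]
  congr 1
  have h4 := congrArg (fun e : Module.End F K => e 1) h3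
  simp only [mul_apply_units, L_apply, mul_one] at h4
  exact h4.symm

/-- The algebra map attached to an element of the normaliser. -/
noncomputable def alphaHom {g : (Module.End F K)ˣ}
    (hg : g ∈ Subgroup.normalizer ((singer F K : Subgroup (Module.End F K)ˣ) : Set (Module.End F K)ˣ)) :
    K →ₐ[F] K :=
  { toFun := alpha g
    map_one' := alpha_one g
    map_mul' := by
      intro a b
      have h1 := conj_L_of_mem_normalizer hg (a * b)
      have h2 := conj_L_of_mem_normalizer hg a
      have h3 := conj_L_of_mem_normalizer hg b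
      have h4 : L (F := F) (alpha g (a * b)) = L (F := F) (alpha g a) * L (F := F) (alpha g b) := by
        rw [← h1, ← h2, ← h3, map_mul]
        have hinv : ((g⁻¹ : (Module.End F K)ˣ) : Module.End F K) * (g : Module.End F K) = 1 := g.inv_mul
        calc (g : Module.End F K) * (L (F := F) a * L (F := F) b) * ((g⁻¹ : (Module.End F K)ˣ) : Module.End F K)
            = (g : Module.End F K) * L (F := F) a * 1 * L (F := F) b * ((g⁻¹ : (Module.End F K)ˣ) : Module.End F K) := by
              simp [mul_assoc]
          _ = _ := by rw [← hinv]; simp only [mul_assoc]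
      have h5 := congrArg (fun e : Module.End F K => e 1) h4
      simpa [mul_apply_units, L_apply] using h5
    map_zero' := by simp [alpha]
    map_add' := by
      intro a b
      simp [alpha, add_mul]
    commutes' := by
      intro c
      simp only [alpha]
      rw [Algebra.algebraMap_eq_smul_one, smul_mul_assoc, one_mul, map_smul, apply_inv_apply,
        Algebra.smul_def, mul_one] }

lemma alphaHom_apply {g : (Module.End F K)ˣ}
    (hg : g ∈ Subgroup.normalizer ((singer F K : Subgroup (Module.End F K)ˣ) : Set (Module.End F K)ˣ))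
    (a : K) : alphaHom hg a = alpha g a := rfl

/-- The formula `g a = α(a) * g 1`. -/
lemma apply_eq_alpha_mul {g : (Module.End F K)ˣ}
    (hg : g ∈ Subgroup.normalizer ((singer F K : Subgroup (Module.End F K)ˣ) : Set (Module.End F K)ˣ))
    (a : K) : (g : Module.End F K) a = alpha g a * (g : Module.End F K) 1 := by
  have h1 := conj_L_of_mem_normalizer hg a
  have h2 := congrArg (fun e : Module.End F K => e ((g : Module.End F K) 1)) h1
  simp only [mul_apply_units, L_apply] at h2
  rw [inv_apply_apply, mul_one] at h2
  exact h2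

/-- A field automorphism, as a unit of `End`. -/
noncomputable def autUnit (σ : K ≃ₐ[F] K) : (Module.End F K)ˣ :=
  LinearMap.GeneralLinearGroup.ofLinearEquiv σ.toLinearEquiv

lemma autUnit_apply (σ : K ≃ₐ[F] K) (x : K) : (autUnit σ : Module.End F K) x = σ x := rfl

lemma autUnit_inv_apply (σ : K ≃ₐ[F] K) (x : K) :
    (((autUnit σ)⁻¹ : (Module.End F K)ˣ) : Module.End F K) x = σ.symm x := rfl

lemma autUnit_mem_normalizer (σ : K ≃ₐ[F] K) :
    autUnit σ ∈ Subgroup.normalizer ((singer F K : Subgroup (Module.End F K)ˣ) : Set (Module.End F K)ˣ) := by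
  have key : ∀ (τ : K ≃ₐ[F] K) (h : (Module.End F K)ˣ), h ∈ singer F K →
      autUnit τ * h * (autUnit τ)⁻¹ ∈ singer F K := by
    intro τ h hh
    obtain ⟨u, hu⟩ := (mem_singer_iff _).mp hh
    rw [mem_singer_iff]
    refine ⟨Units.map (τ : K →* K) u, ?_⟩
    ext x
    simp only [Units.val_mul, mul_apply_units, autUnit_apply, autUnit_inv_apply, hu, L_apply,
      map_mul, AlgEquiv.apply_symm_apply]
    rfl
  rw [Subgroup.mem_normalizer_iff]
  intro h
  refine ⟨key σ h, fun h2 => ?_⟩
  have h3 := key σ.symm _ h2
  have h4 : autUnit σ.symm * (autUnit σ * h * (autUnit σ)⁻¹) * (autUnit σ.symm)⁻¹ = h := by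
    have h5 : autUnit σ.symm = (autUnit σ)⁻¹ := by
      rw [eq_inv_iff_mul_eq_one]
      ext x
      simp [autUnit_apply]
    rw [h5]; group
  rwa [h4] at h3

end Cfsg.Agent.Lib.Singer.Norm
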